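import Mathlib
import Cfsg.Agent.H69.SL2Normalizer

/-!
The Sylow `2`-subgroups of `SL₂(q)`, `q` odd: centraliser and normaliser.
-/

namespace Cfsg.Agent.H69

open Matrix Matrix.SpecialLinearGroup

variable {F : Type*} [Field F] [Fintype F]

local notation "SL₂" => Matrix.SpecialLinearGroup (Fin 2) F
local notation "M₂" => Matrix (Fin 2) (Fin 2) F
local notation "q" => Fintype.card F

lemma ringChar_ne_two_of_ne_zero (h2 : (2 : F) ≠ 0) : ringChar F ≠ 2 := fun h => h2 (by
  have hc := ringChar.Nat.cast_ringChar (R := F)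
  rw [h] at hc
  exact_mod_cast hc)

lemma odd_card_of_two_ne_zero (h2 : (2 : F) ≠ 0) : q % 2 = 1 :=
  FiniteField.odd_card_of_char_ne_two (ringChar_ne_two_of_ne_zero h2)

lemma sylow_two_card_of_eq {G : Type*} [Group G] [Finite G] (S : Sylow 2 G) {v r : ℕ}
    (hr : r % 2 = 1) (h : Nat.card G = 2 ^ v * r) : Nat.card S = 2 ^ v := by
  haveI := Fact.mk Nat.prime_two
  rw [S.card_eq_multiplicity, h, Nat.factorization_mul (by positivity) (by omega),
    Finsupp.add_apply, Nat.prime_two.factorization_pow, Finsupp.single_eq_same,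
    Nat.factorization_eq_zero_of_not_dvd (by omega), add_zero]

lemma not_sylow_two_card_dvd (h2 : (2 : F) ≠ 0) (S : Sylow 2 SL₂) {n : ℕ}
    (hn : n = q - 1 ∨ n = q + 1 ∨ n = 2 * q) : ¬ Nat.card S ∣ n := by
  haveI := Fact.mk Nat.prime_two
  rintro ⟨c, hc⟩
  have hodd := odd_card_of_two_ne_zero h2
  obtain ⟨r, hr⟩ : ∃ r, q = 2 * r + 1 := ⟨q / 2, by omega⟩
  obtain ⟨e, he⟩ : ∃ e, Nat.card SL₂ = n * (2 * e) := by
    rw [card_sl2']
    rcases hn with rfl | rfl | rfl
    · exact ⟨q * (r + 1), by rw [hr]; ring⟩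
    · exact ⟨q * r, by rw [hr, Nat.add_sub_cancel]; ring⟩
    · obtain ⟨s, hs⟩ := Nat.even_mul_succ_self r
      exact ⟨s + s, by
        rw [hr, Nat.add_sub_cancel, show (2 * r + 1) * (2 * r) * (2 * r + 1 + 1)
          = (2 * r + 1) * (4 * (r * (r + 1))) by ring, hs]
        ring⟩
  have hidx := S.not_dvd_index
  have := S.toSubgroup.card_mul_index
  rw [he, hc, mul_assoc] at this
  exact hidx ⟨c * e, by rw [Nat.eq_of_mul_eq_mul_left Nat.card_pos this]; ring⟩

lemma sylow_two_centralizer (h2 : (2 : F) ≠ 0) (S : Sylow 2 SL₂) :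
    Subgroup.centralizer ((S : Subgroup SL₂) : Set SL₂) = Subgroup.center SL₂ := by
  refine le_antisymm (fun x hx => ?_) (fun x hx => ?_)
  · by_contra hxc
    rw [sl2_mem_center_iff] at hxc
    have hle : (S : Subgroup SL₂) ≤ Subgroup.centralizer ({x} : Set SL₂) := fun s hs =>
      Subgroup.mem_centralizer_singleton_iff.2 (Subgroup.mem_centralizer_iff.1 hx s hs)
    have hd := Subgroup.card_dvd_of_le hle
    by_cases ht : (x : M₂).trace ^ 2 = 4
    · rw [card_centralizer_unipotent_odd hxc ht (ringChar_ne_two_of_ne_zero h2),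
        Nat.card_eq_fintype_card (α := F)] at hd
      exact not_sylow_two_card_dvd h2 S (Or.inr (Or.inr rfl)) hd
    · rcases card_centralizer_semisimple ht with h | h <;> rw [h] at hd
      · exact not_sylow_two_card_dvd h2 S (Or.inl rfl) hd
      · exact not_sylow_two_card_dvd h2 S (Or.inr (Or.inl rfl)) hd
  · exact Subgroup.mem_centralizer_iff.2 fun s _ => Subgroup.mem_center_iff.1 hx s

omit [Fintype F] in
lemma ss_of_two_pow (h2 : (2 : F) ≠ 0) [Fintype F] {y : SL₂} {k : ℕ} (hk : orderOf y = 2 ^ k)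
    (hk2 : 2 ≤ k) : (y : M₂).trace ^ 2 ≠ 4 := by
  obtain ⟨p, hp⟩ := CharP.exists F
  obtain ⟨m, hpp, -⟩ := FiniteField.card F p
  haveI := Fact.mk hpp
  have hp2 : p ≠ 2 := fun h => h2 (by subst h; exact_mod_cast CharP.cast_eq_zero F 2)
  have hns : ¬ IsScalar2 (y : M₂) := by
    intro hs
    have h1 : y ^ 2 = 1 := by
      rcases (sl2_mem_center_iff_eq y).1 ((sl2_mem_center_iff y).2 hs) with e | e <;> rw [e] <;>
        simp
    have := Nat.le_of_dvd two_pos (orderOf_dvd_of_pow_eq_one h1)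
    have h4 : 2 ^ 2 ≤ 2 ^ k := Nat.pow_le_pow_right two_pos hk2
    omega
  have h := Cfsg.Agent.H6.ss_of_coprime_order p (g := y)
    (by rw [hk]; exact Nat.Coprime.pow_left _ ((Nat.coprime_primes Nat.prime_two hpp).2 hp2.symm))
    (fun hs => hns hs)
  rw [Cfsg.Agent.H6.tr, ← Matrix.trace_fin_two] at h
  exact h

lemma sylow_two_mem_of_sq {x : SL₂} (S : Sylow 2 SL₂) (hx : x ∈ Subgroup.normalizer
    ((S : Subgroup SL₂) : Set SL₂)) (hxx : x * x ∈ (S : Subgroup SL₂)) : x ∈ (S : Subgroup SL₂) := by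
  haveI := Fact.mk Nat.prime_two
  obtain ⟨k, hk⟩ := S.isPGroup' ⟨x * x, hxx⟩
  have hk' : x ^ (2 ^ (k + 1)) = 1 := by
    rw [pow_succ', pow_mul, sq]
    exact congrArg Subtype.val hk
  obtain ⟨j, -, hj⟩ := (Nat.dvd_prime_pow Nat.prime_two).1 (orderOf_dvd_of_pow_eq_one hk')
  have hP : IsPGroup 2 (Subgroup.zpowers x) :=
    IsPGroup.of_card (n := j) (by rw [Nat.card_zpowers, hj])
  have h := hP.inf_normalizer_sylow S
  exact (h.le ⟨Subgroup.mem_zpowers x, hx⟩).2

/-- A Sylow `2`-subgroup containing `y` of order `2^a ≥ 4` and twice as large normalises the torus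
of `y` and has elements outside it. -/
lemma sylow_two_structure (h2 : (2 : F) ≠ 0) (S : Sylow 2 SL₂) {a : ℕ} (ha : 2 ≤ a)
    (hS : Nat.card S = 2 ^ (a + 1)) {y : SL₂} (hy : y ∈ (S : Subgroup SL₂))
    (hyo : orderOf y = 2 ^ a) :
    (∀ s ∈ (S : Subgroup SL₂),
      s ∈ Subgroup.normalizer ((Subgroup.centralizer ({y} : Set SL₂)) : Set SL₂)) ∧
    (∃ w ∈ (S : Subgroup SL₂), w ∉ Subgroup.centralizer ({y} : Set SL₂) ∧ w * w = -1 ∧
      (∀ s ∈ (S : Subgroup SL₂), s ∈ Subgroup.zpowers y ∨ w⁻¹ * s ∈ Subgroup.zpowers y)) := by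
  haveI := Fact.mk Nat.prime_two
  have ht := ss_of_two_pow h2 hyo ha
  set Y : Subgroup (S : Subgroup SL₂) := Subgroup.zpowers ⟨y, hy⟩ with hY
  have hYc : Nat.card Y = 2 ^ a := by
    rw [hY, Nat.card_zpowers, ← Subgroup.orderOf_coe]
    exact hyo
  have hYi : Y.index = 2 := by
    have h := Y.card_mul_index
    rw [hYc, hS, pow_succ] at h
    exact Nat.eq_of_mul_eq_mul_left (by positivity) h
  haveI := Subgroup.normal_of_index_eq_two hYi
  have hmemY : ∀ s : (S : Subgroup SL₂), s ∈ Y → (s : SL₂) ∈ Subgroup.zpowers y := by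
    rintro _ ⟨i, rfl⟩
    exact ⟨i, rfl⟩
  have hzC : Subgroup.zpowers y ≤ Subgroup.centralizer ({y} : Set SL₂) :=
    Subgroup.zpowers_le.2 (sl2_self_mem_centralizer y)
  have hnorm : ∀ s ∈ (S : Subgroup SL₂),
      s ∈ Subgroup.normalizer ((Subgroup.centralizer ({y} : Set SL₂)) : Set SL₂) := by
    intro s hs
    rw [sl2_mem_normalizer_centralizer_iff ht]
    have h1 := Subgroup.Normal.conj_mem (inferInstance : Y.Normal) ⟨y, hy⟩
      (Subgroup.mem_zpowers _) ⟨s, hs⟩
    have h3 : s * y * s⁻¹ ∈ Subgroup.centralizer ({y} : Set SL₂) := hzC (hmemY _ h1)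
    exact Cfsg.Agent.H6.eq_or_eq_inv_of_tr_eq (g := y) (h := s * y * s⁻¹)
      (by rw [Cfsg.Agent.H6.tr, ← Matrix.trace_fin_two]; exact ht)
      (fun hs' => not_isScalar2_of_trace ht hs') (Cfsg.Agent.H6.mem_cent.2
        (Subgroup.mem_centralizer_singleton_iff.1 h3).symm) (Cfsg.Agent.H6.tr_conj s y)
  refine ⟨hnorm, ?_⟩
  have hnle : ¬ (S : Subgroup SL₂) ≤ Subgroup.centralizer ({y} : Set SL₂) := by
    intro hle
    have hd := Subgroup.card_dvd_of_le hle
    rcases card_centralizer_semisimple ht with h | h <;> rw [h] at hd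
    · exact not_sylow_two_card_dvd h2 S (Or.inl rfl) hd
    · exact not_sylow_two_card_dvd h2 S (Or.inr (Or.inl rfl)) hd
  obtain ⟨w, hwS, hwC⟩ := SetLike.not_le_iff_exists.1 hnle
  obtain ⟨-, -, hsq, -⟩ := sl2_torus_normalizer ht
  refine ⟨w, hwS, hwC, hsq h2 w (hnorm w hwS) hwC, fun s hs => ?_⟩
  by_cases hsY : (⟨s, hs⟩ : (S : Subgroup SL₂)) ∈ Y
  · exact Or.inl (hmemY _ hsY)
  · refine Or.inr (hmemY ((⟨w, hwS⟩ : (S : Subgroup SL₂))⁻¹ * (⟨s, hs⟩ : (S : Subgroup SL₂))) ?_)
    rw [Subgroup.mul_mem_iff_of_index_two hYi, inv_mem_iff]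
    exact iff_of_false (fun h => hwC (hzC (hmemY _ h))) hsY

/-- If the torus order is divisible by `8`, Sylow `2`-subgroups are self-normalising. -/
lemma sylow_two_normalizer_card_one (h2 : (2 : F) ≠ 0) (h8 : q % 8 = 1 ∨ q % 8 = 7) :
    ∃ S : Sylow 2 SL₂,
      Subgroup.normalizer ((S : Subgroup SL₂) : Set SL₂) = (S : Subgroup SL₂) := by
  haveI := Fact.mk Nat.prime_two
  have hq : 4 ≤ q := by
    have := Fintype.one_lt_card (α := F)
    omega
  obtain ⟨g, hg, n, hgn, hn8, hG⟩ : ∃ g : SL₂, (g : M₂).trace ^ 2 ≠ 4 ∧ ∃ n,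
      Nat.card (Subgroup.centralizer ({g} : Set SL₂)) = n ∧ 8 ∣ n ∧
      ∃ r, r % 2 = 1 ∧ Nat.card SL₂ = n * (2 * r) := by
    rcases h8 with h | h
    · obtain ⟨g, hg, hc⟩ := exists_split_element (F := F) hq
      obtain ⟨m, hm⟩ : ∃ m, q = 2 * m + 1 := ⟨q / 2, by omega⟩
      exact ⟨g, hg, _, hc, by omega, q * (m + 1), by rw [Nat.mul_mod]; simp [show q % 2 = 1 by omega,
        show (m + 1) % 2 = 1 by omega], by rw [card_sl2', hm]; ring⟩
    · obtain ⟨g, hg, hc⟩ := exists_elliptic_element (F := F)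
      obtain ⟨m, hm⟩ : ∃ m, q = 2 * m + 1 := ⟨q / 2, by omega⟩
      exact ⟨g, hg, _, hc, by omega, q * m, by rw [Nat.mul_mod]; simp [show q % 2 = 1 by omega,
        show m % 2 = 1 by omega], by rw [card_sl2', hm, Nat.add_sub_cancel]; ring⟩
  obtain ⟨r, hr, hG⟩ := hG
  obtain ⟨x, hx, -⟩ := exists_torus_generator hg
  rw [hgn] at hx
  have hn0 : n ≠ 0 := by rw [← hgn]; exact Nat.card_pos.ne'
  obtain ⟨a, m, hm, hnm⟩ := Nat.exists_eq_two_pow_mul_odd hn0
  have hm' := Nat.odd_iff.1 hm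
  have ha : 3 ≤ a := by
    by_contra hlt
    rw [hnm] at hn8
    have : a = 0 ∨ a = 1 ∨ a = 2 := by omega
    rcases this with rfl | rfl | rfl <;> omega
  set y := x ^ m with hy
  have hyo : orderOf y = 2 ^ a := by
    rw [hy, orderOf_pow' x (by omega), hx, hnm, Nat.gcd_mul_left_left,
      Nat.mul_div_cancel _ (by omega)]
  obtain ⟨S, hS⟩ := (IsPGroup.of_card (p := 2) (n := a)
    (G := Subgroup.zpowers y) (by rw [Nat.card_zpowers, hyo])).exists_le_sylow
  have hyS : y ∈ (S : Subgroup SL₂) := hS (Subgroup.mem_zpowers y)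
  have hcard : Nat.card S = 2 ^ (a + 1) :=
    sylow_two_card_of_eq S (r := m * r) (by rw [Nat.mul_mod, hm', hr]) (by rw [hG, hnm]; ring)
  obtain ⟨hnorm, w, hwS, hwC, hww, -⟩ := sylow_two_structure h2 S (by omega) hcard hyS hyo
  have ht := ss_of_two_pow h2 hyo (by omega)
  obtain ⟨-, hinv, hsq, -⟩ := sl2_torus_normalizer ht
  refine ⟨S, le_antisymm (fun z hz => ?_) Subgroup.le_normalizer⟩
  have hzy : z * y * z⁻¹ ∈ Subgroup.centralizer ({y} : Set SL₂) := by
    have hzS := ((Subgroup.mem_normalizer_iff.1 hz) y).1 hyS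
    by_contra hc
    have h4 : (z * y * z⁻¹) ^ 4 = 1 := by
      rw [show 4 = 2 * 2 from rfl, pow_mul, sq (z * y * z⁻¹), hsq h2 _ (hnorm _ hzS) hc]
      simp
    have hd := orderOf_dvd_of_pow_eq_one h4
    rw [← MulAut.conj_apply, MulEquiv.orderOf_eq, hyo] at hd
    have := Nat.le_of_dvd (by norm_num) hd
    have := Nat.pow_le_pow_right two_pos ha
    omega
  have hzN : z ∈ Subgroup.normalizer ((Subgroup.centralizer ({y} : Set SL₂)) : Set SL₂) := by
    rw [sl2_mem_normalizer_centralizer_iff ht]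
    exact Cfsg.Agent.H6.eq_or_eq_inv_of_tr_eq (g := y) (h := z * y * z⁻¹)
      (by rw [Cfsg.Agent.H6.tr, ← Matrix.trace_fin_two]; exact ht)
      (fun hs => not_isScalar2_of_trace ht hs) (Cfsg.Agent.H6.mem_cent.2
        (Subgroup.mem_centralizer_singleton_iff.1 hzy).symm) (Cfsg.Agent.H6.tr_conj z y)
  have main : ∀ u ∈ Subgroup.normalizer ((S : Subgroup SL₂) : Set SL₂),
      u ∈ Subgroup.centralizer ({y} : Set SL₂) → u ∈ (S : Subgroup SL₂) := by
    intro u hu huC
    refine sylow_two_mem_of_sq S hu ?_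
    have h1 := ((Subgroup.mem_normalizer_iff.1 hu) w).1 hwS
    have h3 : w * u⁻¹ * w⁻¹ = u := by
      rw [hinv w (hnorm w hwS) hwC u⁻¹ (inv_mem huC), inv_inv]
    have h4 : u * u = u * w * u⁻¹ * w⁻¹ := by
      conv_lhs => arg 2; rw [← h3]
      simp [mul_assoc]
    rw [h4]
    exact mul_mem h1 (inv_mem hwS)
  by_cases hzC : z ∈ Subgroup.centralizer ({y} : Set SL₂)
  · exact main z hz hzC
  · have hzw : z * w ∈ Subgroup.centralizer ({y} : Set SL₂) := by
      rw [Subgroup.mem_centralizer_singleton_iff, ← mul_inv_eq_iff_eq_mul, _root_.mul_inv_rev]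
      calc z * w * y * (w⁻¹ * z⁻¹) = z * (w * y * w⁻¹) * z⁻¹ := by simp [mul_assoc]
        _ = z * y⁻¹ * z⁻¹ := by rw [hinv w (hnorm w hwS) hwC y (sl2_self_mem_centralizer y)]
        _ = (z * y * z⁻¹)⁻¹ := by rw [conj_inv]
        _ = y := by rw [hinv z hzN hzC y (sl2_self_mem_centralizer y), inv_inv]
    have := main _ (mul_mem hz (Subgroup.le_normalizer hwS)) hzw
    simpa using mul_mem this (inv_mem hwS)

/-- For `q ≡ ±3 (mod 8)` the normaliser of a Sylow `2`-subgroup has order `24`. -/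
lemma sylow_two_normalizer_card_three (h2 : (2 : F) ≠ 0) (h8 : q % 8 = 3 ∨ q % 8 = 5) :
    ∃ S : Sylow 2 SL₂,
      Nat.card (Subgroup.normalizer ((S : Subgroup SL₂) : Set SL₂)) = 24 ∧ Nat.card S = 8 := by
  classical
  haveI := Fact.mk Nat.prime_two
  set i : SL₂ := slComp 0 with hi
  have hit : (i : M₂).trace = 0 := trace_slComp 0
  have four : (0 : F) ^ 2 ≠ 4 := by
    intro h
    exact mul_ne_zero h2 h2 (by linear_combination -h)
  have hii : i * i = -1 := by
    apply Subtype.ext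
    rw [coe_mul, mul_self_fin_two, hit, i.2]
    simp
  have hio : orderOf i = 2 ^ 2 := by
    refine orderOf_eq_prime_pow ?_ ?_
    · rw [pow_one, sq, hii]
      exact sl2_neg_ne_self h2 1
    · rw [show 2 ^ (1 + 1) = 2 * 2 from rfl, pow_mul, sq i, hii]
      simp
  obtain ⟨S, hS⟩ := (IsPGroup.of_card (p := 2) (n := 2)
    (G := Subgroup.zpowers i) (by rw [Nat.card_zpowers, hio])).exists_le_sylow
  have hiS : i ∈ (S : Subgroup SL₂) := hS (Subgroup.mem_zpowers i)
  have hcard : Nat.card S = 2 ^ (2 + 1) := by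
    rcases h8 with h | h
    · obtain ⟨k, hk⟩ : ∃ k, q = 8 * k + 3 := ⟨q / 8, by omega⟩
      exact sylow_two_card_of_eq S (r := (8 * k + 3) * (4 * k + 1) * (2 * k + 1))
        (by simp [Nat.mul_mod, Nat.add_mod]) (by
          rw [card_sl2', hk, show 8 * k + 3 - 1 = 8 * k + 2 by omega]; ring)
    · obtain ⟨k, hk⟩ : ∃ k, q = 8 * k + 5 := ⟨q / 8, by omega⟩
      exact sylow_two_card_of_eq S (r := (8 * k + 5) * (2 * k + 1) * (4 * k + 3))
        (by simp [Nat.mul_mod, Nat.add_mod]) (by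
          rw [card_sl2', hk, show 8 * k + 5 - 1 = 8 * k + 4 by omega]; ring)
  obtain ⟨hnorm, w, hwS, hwC, hww, hcov⟩ := sylow_two_structure h2 S le_rfl hcard hiS hio
  have ht : (i : M₂).trace ^ 2 ≠ 4 := by rw [hit]; exact four
  obtain ⟨-, hinv, -, -⟩ := sl2_torus_normalizer ht
  have hwi : w * i = -(i * w) := by
    have h := mul_inv_eq_iff_eq_mul.1 (hinv w (hnorm w hwS) hwC i (sl2_self_mem_centralizer i))
    rw [h, inv_eq_of_mul_eq_one_right (show i * -i = 1 by rw [mul_neg, hii, neg_neg]), neg_mul]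
  -- matrices
  set I : M₂ := (i : M₂) with hI
  set W : M₂ := (w : M₂) with hW
  have hIW : W * I = -(I * W) := by
    have := congrArg (fun z : SL₂ => (z : M₂)) hwi
    simpa using this
  have hI2 : I * I = -1 := by simpa using congrArg (fun z : SL₂ => (z : M₂)) hii
  have hW2 : W * W = -1 := by simpa using congrArg (fun z : SL₂ => (z : M₂)) hww
  have hWIx : ∀ A : M₂, W * (I * A) = -(I * (W * A)) := fun A => by
    rw [← Matrix.mul_assoc, hIW, Matrix.neg_mul, Matrix.mul_assoc]
  have hI2x : ∀ A : M₂, I * (I * A) = -A := fun A => by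
    rw [← Matrix.mul_assoc, hI2, Matrix.neg_mul, Matrix.one_mul]
  have hW2x : ∀ A : M₂, W * (W * A) = -A := fun A => by
    rw [← Matrix.mul_assoc, hW2, Matrix.neg_mul, Matrix.one_mul]
  have hWt : W.trace = 0 := by
    have h := mul_self_fin_two W
    rw [hW2, w.2, one_smul] at h
    have h' : W.trace • W = 0 := sub_eq_neg_self.1 h.symm
    rcases smul_eq_zero.1 h' with e | e
    · exact e
    · exfalso
      have hd := w.2
      rw [← hW, e, Matrix.det_zero] at hd
      exact zero_ne_one hd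
  have hIWt : (I * W).trace = 0 := by
    have h1 := Matrix.trace_mul_comm I W
    rw [hIW, Matrix.trace_neg] at h1
    exact (mul_eq_zero.1 (show (2 : F) * (I * W).trace = 0 by linear_combination h1)).resolve_left h2
  set X : M₂ := I + W + I * W with hX
  have hX2 : X * X = (-3 : F) • (1 : M₂) := by
    simp only [hX, mul_add, add_mul, Matrix.mul_assoc, hWIx, hIW, hI2, hI2x, hW2, hW2x,
      mul_neg, Matrix.mul_one, neg_neg]
    module
  have hXt : X.trace = 0 := by simp [hX, hit, hWt, hIWt]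
  have hXd : X.det = 3 := by
    have h := mul_self_fin_two X
    rw [hX2, hXt, zero_smul, zero_sub, ← neg_smul] at h
    have := congrArg (fun A : M₂ => A 0 0) h
    simp at this
    exact this.symm
  let hh : SL₂ := ⟨(-1 / 2 : F) • (1 : M₂) + (1 / 2 : F) • X, by
    rw [det_smul_add_smul, hXt, hXd]
    field_simp
    ring⟩
  have hhm : (hh : M₂) = (-1 / 2 : F) • (1 : M₂) + (1 / 2 : F) • X := rfl
  clear_value hh
  have hhi : hh * i * hh⁻¹ = i * w := by
    rw [mul_inv_eq_iff_eq_mul]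
    apply Subtype.ext
    simp only [hhm, coe_mul, ← hI, ← hW, hX, mul_add, add_mul, smul_mul_assoc, mul_smul_comm,
      smul_add, Matrix.mul_assoc, hWIx, hIW, hI2, hI2x, hW2, hW2x, mul_neg, Matrix.mul_one,
      Matrix.one_mul, neg_neg, smul_neg]
    module
  have hhw : hh * w * hh⁻¹ = i := by
    rw [mul_inv_eq_iff_eq_mul]
    apply Subtype.ext
    simp only [hhm, coe_mul, ← hI, ← hW, hX, mul_add, add_mul, smul_mul_assoc, mul_smul_comm,
      smul_add, Matrix.mul_assoc, hWIx, hIW, hI2, hI2x, hW2, hW2x, mul_neg, Matrix.mul_one,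
      Matrix.one_mul, neg_neg, smul_neg]
    module
  have hh3 : hh ^ 3 = 1 := by
    have hh2 : hh * hh = hh⁻¹ := by
      apply Subtype.ext
      rw [coe_mul, mul_self_fin_two, sl2_coe_inv, hh.2]
      have ht1 : (hh : M₂).trace = -1 := by
        simp [hhm, Matrix.trace_add, hXt]
        field_simp
      rw [ht1]
      module
    rw [pow_succ, sq, hh2, inv_mul_cancel]
  have hhne : hh ≠ 1 := by
    intro e
    rw [e, one_mul, inv_one, mul_one, left_eq_mul] at hhi
    exact hwC (hhi ▸ Subgroup.one_mem _)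
  have hho : orderOf hh = 3 := by
    haveI := Fact.mk Nat.prime_three
    exact orderOf_eq_prime hh3 hhne
  have hiwS : i * w ∈ (S : Subgroup SL₂) := mul_mem hiS hwS
  have hpow : ∀ s ∈ Subgroup.zpowers i, hh * s * hh⁻¹ ∈ (S : Subgroup SL₂) := by
    rintro _ ⟨k, rfl⟩
    rw [← conj_zpow, hhi]
    exact zpow_mem hiwS k
  have hhS : ∀ s ∈ (S : Subgroup SL₂), hh * s * hh⁻¹ ∈ (S : Subgroup SL₂) := by
    intro s hs
    rcases hcov s hs with h | h
    · exact hpow s h
    · have e : hh * s * hh⁻¹ = (hh * w * hh⁻¹) * (hh * (w⁻¹ * s) * hh⁻¹) := by simp [mul_assoc]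
      rw [e, hhw]
      exact mul_mem hiS (hpow _ h)
  have hhN : hh ∈ Subgroup.normalizer ((S : Subgroup SL₂) : Set SL₂) := by
    rw [Subgroup.mem_normalizer_iff]
    intro s
    refine ⟨hhS s, fun h => ?_⟩
    have hinv3 : hh⁻¹ = hh * hh := inv_eq_of_mul_eq_one_right (by rw [← mul_assoc, ← sq, ← pow_succ]; exact hh3)
    have := hhS _ (hhS _ h)
    rwa [show hh * (hh * (hh * s * hh⁻¹) * hh⁻¹) * hh⁻¹ = (hh * hh) * hh * s * ((hh * hh) * hh)⁻¹ by
      simp [mul_assoc], ← hinv3, inv_mul_cancel, one_mul, inv_one, mul_one] at this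
  refine ⟨S, ?_, hcard⟩
  set N := Subgroup.normalizer ((S : Subgroup SL₂) : Set SL₂) with hN
  haveI : Fintype N := Fintype.ofFinite N
  have hlow : 24 ∣ Nat.card N := by
    have h1 : 8 ∣ Nat.card N := by
      have := Subgroup.card_dvd_of_le (Subgroup.le_normalizer (H := (S : Subgroup SL₂)))
      rwa [hcard] at this
    have h3 : 3 ∣ Nat.card N := hho ▸ Subgroup.orderOf_dvd_natCard N hhN
    exact Nat.Coprime.mul_dvd_of_dvd_of_dvd (by norm_num : Nat.Coprime 8 3) h1 h3
  have hup : Nat.card N ≤ 24 := by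
    haveI : Fintype (S : Subgroup SL₂) := Fintype.ofFinite _
    let f : N → SL₂ := fun x => (x : SL₂) * i * (x : SL₂)⁻¹
    let T : Finset SL₂ := ((S : Subgroup SL₂) : Set SL₂).toFinset \ {1, -1}
    have hT : T.card ≤ 6 := by
      have h1 : ({1, -1} : Finset SL₂) ⊆ ((S : Subgroup SL₂) : Set SL₂).toFinset := by
        intro z hz
        rw [Set.mem_toFinset, SetLike.mem_coe]
        rcases Finset.mem_insert.1 hz with rfl | hz
        · exact one_mem _
        · rw [Finset.mem_singleton] at hz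
          rw [hz, ← hii]
          exact mul_mem hiS hiS
      rw [Finset.card_sdiff_of_subset h1, Set.toFinset_card, Finset.card_pair (sl2_neg_ne_self h2 1).symm,
        ← Nat.card_eq_fintype_card]
      change Nat.card S - 2 ≤ 6
      rw [hcard]
      norm_num
    have hmaps : ∀ x ∈ (Finset.univ : Finset N), f x ∈ T := by
      intro x _
      simp only [T, Finset.mem_sdiff, Set.mem_toFinset, SetLike.mem_coe]
      refine ⟨((Subgroup.mem_normalizer_iff.1 x.2) i).1 hiS, fun h => ?_⟩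
      have hsc : IsScalar2 ((f x : SL₂) : M₂) := by
        rw [← sl2_mem_center_iff, sl2_mem_center_iff_eq]
        simpa using h
      rw [sl2_isScalar2_conj_iff] at hsc
      exact not_isScalar2_of_trace ht hsc
    have hfib : ∀ b ∈ T, (Finset.univ.filter (fun x : N => f x = b)).card ≤ 4 := by
      intro b _
      rcases (Finset.univ.filter (fun x : N => f x = b)).eq_empty_or_nonempty with he | ⟨x0, hx0⟩
      · simp [he]
      · have hf0 : f x0 = b := (Finset.mem_filter.1 hx0).2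
        let Z : Finset SL₂ := {1, -1, i, -i}
        refine le_trans ?_ (Finset.card_le_four (a := (1 : SL₂)) (b := -1) (c := i) (d := -i))
        refine Finset.card_le_card_of_injOn (fun x : N => ((x0⁻¹ * x : N) : SL₂)) ?_ ?_
        · intro x hx
          have hfx : f x = f x0 := ((Finset.mem_filter.1 hx).2).trans hf0.symm
          set u : SL₂ := ((x0⁻¹ * x : N) : SL₂) with hu
          have huC : u ∈ Subgroup.centralizer ({i} : Set SL₂) := by
            rw [Subgroup.mem_centralizer_singleton_iff, ← mul_inv_eq_iff_eq_mul]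
            calc u * i * u⁻¹ = (x0 : SL₂)⁻¹ * f x * (x0 : SL₂) := by simp [hu, f, mul_assoc]
              _ = i := by rw [hfx]; simp [f, mul_assoc]
          have huN : u ∈ N := (x0⁻¹ * x).2
          have huS : u ∈ (S : Subgroup SL₂) := by
            refine sylow_two_mem_of_sq S huN ?_
            have h1 := ((Subgroup.mem_normalizer_iff.1 huN) w).1 hwS
            have h3 : w * u⁻¹ * w⁻¹ = u := by
              rw [hinv w (hnorm w hwS) hwC u⁻¹ (inv_mem huC), inv_inv]
            have h4 : u * u = u * w * u⁻¹ * w⁻¹ := by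
              conv_lhs => arg 2; rw [← h3]
              simp [mul_assoc]
            rw [h4]
            exact mul_mem h1 (inv_mem hwS)
          have huZ : u ∈ Subgroup.zpowers i := by
            refine (hcov u huS).resolve_right fun h => hwC ?_
            have := mul_mem huC (inv_mem (Subgroup.zpowers_le.2 (sl2_self_mem_centralizer i) h))
            simpa [mul_assoc] using this
          rw [mem_zpowers_iff_mem_range_orderOf, hio] at huZ
          obtain ⟨k, hk, hk'⟩ := Finset.mem_image.1 huZ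
          rw [Finset.mem_range] at hk
          simp only [Finset.mem_coe, Finset.mem_insert, Finset.mem_singleton]
          change u = 1 ∨ u = -1 ∨ u = i ∨ u = -i
          rw [← hk']
          interval_cases k
          · simp
          · simp
          · right; left; rw [sq, hii]
          · right; right; right; rw [pow_succ, sq, hii, neg_mul, one_mul]
        · intro x _ y _ h
          exact mul_left_cancel (Subtype.ext h)
    have := Finset.card_le_mul_card_image_of_maps_to hmaps 4 hfib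
    rw [Finset.card_univ, ← Nat.card_eq_fintype_card] at this
    omega
  exact le_antisymm hup (Nat.le_of_dvd Nat.card_pos hlow)

end Cfsg.Agent.H69
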