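import Mathlib
import Cfsg.Prelude.Def_Characters
import Cfsg.Agent.H69.SL2SylowTwo
import Cfsg.Agent.H68.RankOne

/-!
Non-split tori of `SL₂(q)`, `q` odd, their linear characters, and the functions induced from them.
-/

namespace Cfsg.Agent.H69

open Matrix Matrix.SpecialLinearGroup
open scoped ComplexConjugate

section General

variable {G : Type*} [Group G] [Fintype G]

/-- An induced function at a product with a central element of the subgroup. -/
lemma indFun_mul_central (H : Subgroup G) (θ : H → ℂ) {z : G} (hz : z ∈ H)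
    (hzc : z ∈ Subgroup.center G) (c : ℂ) (h : ∀ x : H, θ (⟨z, hz⟩ * x) = c * θ x) (g : G) :
    Cfsg.indFun H θ (z * g) = c * Cfsg.indFun H θ g := by
  simp only [Cfsg.indFun, mul_left_comm c, Finset.mul_sum]
  refine Finset.sum_congr rfl fun x _ => ?_
  have e : x⁻¹ * (z * g) * x = z * (x⁻¹ * g * x) := by
    rw [← mul_assoc x⁻¹, Subgroup.mem_center_iff.1 hzc x⁻¹]
    simp [mul_assoc]
  rw [e]
  by_cases hm : x⁻¹ * g * x ∈ H
  · have e1 : Cfsg.extendByZero H θ (z * (x⁻¹ * g * x)) = θ (⟨z, hz⟩ * ⟨_, hm⟩) :=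
      Subtype.val_injective.extend_apply θ 0 ⟨_, H.mul_mem hz hm⟩
    have e2 : Cfsg.extendByZero H θ (x⁻¹ * g * x) = θ ⟨_, hm⟩ :=
      Subtype.val_injective.extend_apply θ 0 ⟨_, hm⟩
    rw [e1, e2, h]
  · have hm' : z * (x⁻¹ * g * x) ∉ H := fun hh => hm ((H.mul_mem_cancel_left hz).1 hh)
    have e1 : Cfsg.extendByZero H θ (z * (x⁻¹ * g * x)) = 0 :=
      Function.extend_apply' _ _ _ fun ⟨a, ha⟩ => hm' (ha ▸ a.2)
    have e2 : Cfsg.extendByZero H θ (x⁻¹ * g * x) = 0 :=
      Function.extend_apply' _ _ _ fun ⟨a, ha⟩ => hm (ha ▸ a.2)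
    rw [e1, e2, mul_zero, mul_zero, mul_zero]

/-- An induced function at a central element of the subgroup. -/
lemma indFun_central_apply (H : Subgroup G) (θ : H → ℂ) {z : G} (hz : z ∈ H)
    (hzc : z ∈ Subgroup.center G) :
    Cfsg.indFun H θ z = (Nat.card G : ℂ) / Nat.card H * θ ⟨z, hz⟩ := by
  simp only [Cfsg.indFun]
  rw [Finset.sum_congr rfl (g := fun _ => θ ⟨z, hz⟩) fun x _ => ?_]
  · rw [Finset.sum_const, Finset.card_univ, nsmul_eq_mul, ← Nat.card_eq_fintype_card]
    ring
  · rw [Subgroup.mem_center_iff.1 hzc x⁻¹, inv_mul_cancel_right]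
    exact Subtype.val_injective.extend_apply θ 0 ⟨z, hz⟩

omit [Fintype G] in
/-- Conjugate of a value of a linear character of a finite group. -/
lemma conj_hom_apply [Finite G] (θ : G →* ℂˣ) (g : G) : conj (θ g : ℂ) = ((θ g)⁻¹ : ℂˣ) := by
  haveI := Fintype.ofFinite G
  have h1 : (θ g : ℂ) ^ Fintype.card G = 1 := by
    rw [← Units.val_pow_eq_pow_val, ← map_pow, pow_card_eq_one, map_one, Units.val_one]
  rw [Units.val_inv_eq_inv_val,
    Complex.inv_eq_conj (Complex.norm_eq_one_of_pow_eq_one h1 Fintype.card_ne_zero)]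

/-- A central involution has linear character values `±1`. -/
lemma hom_apply_sq_eq_one {H : Type*} [Group H] (θ : H →* ℂˣ) {z : H} (hz : z * z = 1) :
    (θ z : ℂ) = 1 ∨ (θ z : ℂ) = -1 :=
  mul_self_eq_one_iff.1 (by rw [← Units.val_mul, ← map_mul, hz, map_one, Units.val_one])

end General

variable {F : Type*} [Field F] [Fintype F]

local notation "SL₂" => Matrix.SpecialLinearGroup (Fin 2) F
local notation "M₂" => Matrix (Fin 2) (Fin 2) F
local notation "q" => Fintype.card F

/-- A non-split torus: the centraliser of an element without eigenvalues. -/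
def IsNonsplit (C : Subgroup SL₂) : Prop :=
  ∃ g : SL₂, rootCount (g : M₂).trace = 0 ∧ C = Subgroup.centralizer {g}

lemma isNonsplit_centralizer {g : SL₂} (h : rootCount (g : M₂).trace = 0) :
    IsNonsplit (Subgroup.centralizer ({g} : Set SL₂)) := ⟨g, h, rfl⟩

/-- A cyclic subgroup of order `q + 1` is a non-split torus. -/
lemma isNonsplit_of_cyclic (h2 : (2 : F) ≠ 0) (C : Subgroup SL₂) (hC : IsCyclic C)
    (hcard : Nat.card C = q + 1) : IsNonsplit C := by
  obtain ⟨p, hpc⟩ := CharP.exists F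
  obtain ⟨n, hpp, hn⟩ := FiniteField.card F p
  haveI := Fact.mk hpp
  have hq := odd_card_of_two_ne_zero h2
  have hq1 := Fintype.one_lt_card (α := F)
  obtain ⟨x, hx⟩ := hC.exists_generator
  have hxo : orderOf (x : SL₂) = q + 1 := by
    rw [Subgroup.orderOf_coe, orderOf_eq_card_of_forall_mem_zpowers hx, hcard]
  have hns : ¬ IsScalar2 ((x : SL₂) : M₂) := by
    intro hs
    have h1 : (x : SL₂) ^ 2 = 1 := by
      rcases (sl2_mem_center_iff_eq _).1 ((sl2_mem_center_iff _).2 hs) with e | e <;> rw [e] <;>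
        simp
    have := Nat.le_of_dvd two_pos (orderOf_dvd_of_pow_eq_one h1)
    omega
  have hcop : Nat.Coprime (q + 1) p := by
    refine ((hpp.coprime_iff_not_dvd).2 fun h => ?_).symm
    have hpq : p ∣ q := hn ▸ dvd_pow_self p n.ne_zero
    exact hpp.one_lt.ne' (Nat.dvd_one.1 ((Nat.dvd_add_right hpq).1 h))
  have ht : ((x : SL₂) : M₂).trace ^ 2 ≠ 4 := by
    have h := Cfsg.Agent.H6.ss_of_coprime_order p (g := (x : SL₂)) (hxo ▸ hcop) (fun hs => hns hs)
    rw [Cfsg.Agent.H6.tr, ← Matrix.trace_fin_two] at h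
    exact h
  have hd := Subgroup.orderOf_dvd_natCard _ (sl2_self_mem_centralizer (x : SL₂))
  rw [hxo] at hd
  rcases card_centralizer_semisimple ht with hc | hc
  · rw [hc] at hd
    have := Nat.le_of_dvd (by omega) hd
    omega
  · have hr : rootCount ((x : SL₂) : M₂).trace = 0 := by
      have := card_centralizer_add hns (Or.inl ht)
      rw [hc, Nat.card_eq_fintype_card (α := F)] at this
      omega
    refine ⟨x, hr, Subgroup.eq_of_le_of_card_ge (fun c hc' => ?_) (by rw [hc, hcard])⟩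
    obtain ⟨i, hi⟩ := hx ⟨c, hc'⟩
    have hi' : (x : SL₂) ^ i = c := by rw [← Subgroup.coe_zpow]; exact congrArg Subtype.val hi
    rw [← hi']
    exact zpow_mem (sl2_self_mem_centralizer _) i

namespace IsNonsplit

variable {C : Subgroup (Matrix.SpecialLinearGroup (Fin 2) F)}

lemma ns_card (h : IsNonsplit C) : Nat.card C = q + 1 := by
  obtain ⟨g, hg, rfl⟩ := h
  have hns := not_isScalar2_of_trace (sq_ne_four_of_rootCount_zero hg)
  rw [card_centralizer_elliptic hns hg, Nat.card_eq_fintype_card]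

lemma ns_cyclic (h : IsNonsplit C) : IsCyclic C := by
  obtain ⟨g, hg, rfl⟩ := h
  exact isCyclic_centralizer (not_isScalar2_of_trace (sq_ne_four_of_rootCount_zero hg))
    (sq_ne_four_of_rootCount_zero hg)

lemma center_le (h : IsNonsplit C) : Subgroup.center SL₂ ≤ C := by
  obtain ⟨g, -, rfl⟩ := h
  exact fun z hz => Subgroup.mem_centralizer_singleton_iff.2 (Subgroup.mem_center_iff.1 hz g).symm

lemma neg_one_mem (h : IsNonsplit C) : (-1 : SL₂) ∈ C :=
  h.center_le ((sl2_mem_center_iff_eq _).2 (Or.inr rfl))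

/-- Facts on non-central elements of a non-split torus. -/
lemma noncentral (h : IsNonsplit C) {c : SL₂} (hc : c ∈ C) (hn : c ∉ Subgroup.center SL₂) :
    Subgroup.centralizer ({c} : Set SL₂) = C ∧ rootCount (c : M₂).trace = 0 ∧
      (c : M₂).trace ^ 2 ≠ 4 := by
  rw [sl2_mem_center_iff] at hn
  obtain ⟨g, hg, rfl⟩ := h
  have hns := not_isScalar2_of_trace (sq_ne_four_of_rootCount_zero hg)
  have he := sl2_centralizer_eq_of_mem hns hc hn
  have hcard : Nat.card (Subgroup.centralizer ({c} : Set SL₂)) = q + 1 := by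
    rw [he, card_centralizer_elliptic hns hg, Nat.card_eq_fintype_card]
  have h1q := Fintype.one_lt_card (α := F)
  have ht : (c : M₂).trace ^ 2 ≠ 4 := by
    intro ht
    by_cases h2 : ringChar F = 2
    · have := card_centralizer_unipotent_even hn ht h2
      rw [hcard, Nat.card_eq_fintype_card] at this
      omega
    · have := card_centralizer_unipotent_odd hn ht h2
      rw [hcard, Nat.card_eq_fintype_card] at this
      have := FiniteField.odd_card_of_char_ne_two h2
      omega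
  have := card_centralizer_add hn (Or.inl ht)
  rw [hcard, Nat.card_eq_fintype_card (α := F)] at this
  exact ⟨he, by omega, ht⟩

lemma inv_eq_self_iff (h : IsNonsplit C) (h2 : (2 : F) ≠ 0) {c : C} :
    c * c = 1 ↔ c = 1 ∨ c = ⟨-1, h.neg_one_mem⟩ := by
  constructor
  · intro hc
    rcases sl2_eq_one_or_neg_one_of_sq h2 (congrArg Subtype.val hc) with e | e
    · exact Or.inl (Subtype.ext e)
    · exact Or.inr (Subtype.ext e)
  · rintro (rfl | rfl) <;> exact Subtype.ext (by simp)

/-- The function induced from a linear character of a non-split torus, at a non-central element. -/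
lemma indFun_apply (h : IsNonsplit C) (θ : C →* ℂˣ) {c : SL₂}
    [Fintype SL₂] (hc : c ∈ C) (hn : c ∉ Subgroup.center SL₂) :
    Cfsg.indFun C (fun x => (θ x : ℂ)) c = (θ ⟨c, hc⟩ : ℂ) + ((θ ⟨c, hc⟩)⁻¹ : ℂˣ) := by
  classical
  obtain ⟨he, hr, ht⟩ := h.noncentral hc hn
  have hns : ¬ IsScalar2 (c : M₂) := by rwa [← sl2_mem_center_iff]
  have hne : c⁻¹ ≠ c := sl2_inv_ne_self ht
  have hterm : ∀ x : SL₂, Cfsg.extendByZero C (fun y => (θ y : ℂ)) (x⁻¹ * c * x) =
      (if x⁻¹ * c * x = c then (θ ⟨c, hc⟩ : ℂ) else 0) +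
        (if x⁻¹ * c * x = c⁻¹ then (((θ ⟨c, hc⟩)⁻¹ : ℂˣ) : ℂ) else 0) := by
    intro x
    by_cases hm : x⁻¹ * c * x ∈ C
    · have e1 : Cfsg.extendByZero C (fun y => (θ y : ℂ)) (x⁻¹ * c * x) = (θ ⟨_, hm⟩ : ℂ) :=
        Subtype.val_injective.extend_apply (fun y => (θ y : ℂ)) 0 ⟨_, hm⟩
      have hh : x⁻¹ * c * x = c ∨ x⁻¹ * c * x = c⁻¹ := by
        have hcase := Cfsg.Agent.H6.eq_or_eq_inv_of_tr_eq (g := c) (h := x⁻¹ * c * x)
          (by rw [Cfsg.Agent.H6.tr, ← Matrix.trace_fin_two]; exact ht) (fun hs => hns hs)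
          (Cfsg.Agent.H6.mem_cent.2 (Subgroup.mem_centralizer_singleton_iff.1 (he.symm ▸ hm)).symm)
          (by simpa using Cfsg.Agent.H6.tr_conj x⁻¹ c)
        exact hcase
      rcases hh with e | e
      · rw [e1, if_pos e, if_neg (by rw [e]; exact hne.symm), add_zero]
        congr 2
        exact Subtype.ext e
      · rw [e1, if_neg (by rw [e]; exact hne), if_pos e, zero_add, ← map_inv]
        congr 2
        exact Subtype.ext e
    · have e1 : Cfsg.extendByZero C (fun y => (θ y : ℂ)) (x⁻¹ * c * x) = 0 :=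
        Function.extend_apply' _ _ _ fun ⟨a, ha⟩ => hm (ha ▸ a.2)
      rw [e1, if_neg (fun e : x⁻¹ * c * x = c => hm (by rw [e]; exact hc)),
        if_neg (fun e : x⁻¹ * c * x = c⁻¹ => hm (by rw [e]; exact C.inv_mem hc)), add_zero]
  have h1 : (Finset.univ.filter (fun x : SL₂ => x⁻¹ * c * x = c)).card = Nat.card C := by
    rw [← he, ← Fintype.card_subtype, ← Nat.card_eq_fintype_card]
    refine Nat.card_congr (Equiv.subtypeEquivRight fun x => ?_)
    rw [Subgroup.mem_centralizer_singleton_iff, mul_assoc, inv_mul_eq_iff_eq_mul]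
    exact eq_comm
  obtain ⟨w, hw⟩ : ∃ w : SL₂, w⁻¹ * c * w = c⁻¹ := by
    obtain ⟨v, hv⟩ := Cfsg.Agent.H6.exists_conj_inv (g := c)
      (by rw [Cfsg.Agent.H6.tr, ← Matrix.trace_fin_two]; exact ht)
    exact ⟨v⁻¹, by rw [inv_inv]; exact hv⟩
  have h3 : (Finset.univ.filter (fun x : SL₂ => x⁻¹ * c * x = c⁻¹)).card = Nat.card C := by
    rw [← h1]
    refine Finset.card_equiv (Equiv.mulRight w⁻¹) fun x => ?_
    simp only [Finset.mem_filter, Finset.mem_univ, true_and, Equiv.coe_mulRight,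
      _root_.mul_inv_rev, inv_inv]
    have hw' : w⁻¹ * c⁻¹ * w = c := by
      have := congrArg (·⁻¹) hw
      simpa [mul_assoc] using this
    constructor
    · intro e
      calc w * x⁻¹ * c * (x * w⁻¹) = w * (x⁻¹ * c * x) * w⁻¹ := by simp [mul_assoc]
        _ = w * (w⁻¹ * c * w) * w⁻¹ := by rw [e, hw]
        _ = c := by simp [mul_assoc]
    · intro e
      calc x⁻¹ * c * x = w⁻¹ * (w * x⁻¹ * c * (x * w⁻¹)) * w := by simp [mul_assoc]
        _ = c⁻¹ := by rw [e, hw]
  simp only [Cfsg.indFun]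
  rw [Finset.sum_congr rfl fun x _ => hterm x, Finset.sum_add_distrib, Finset.sum_ite,
    Finset.sum_ite]
  simp only [Finset.sum_const_zero, add_zero, Finset.sum_const, nsmul_eq_mul, h1, h3]
  have hpos : (Nat.card C : ℂ) ≠ 0 := Nat.cast_ne_zero.2 Nat.card_pos.ne'
  field_simp

/-- The function induced from a non-split torus vanishes at elements with an eigenvalue, outside
the centre. -/
lemma indFun_eq_zero' (h : IsNonsplit C) (f : C → ℂ) [Fintype SL₂] {g : SL₂}
    (hn : g ∉ Subgroup.center SL₂) (hr : rootCount (g : M₂).trace ≠ 0) :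
    Cfsg.indFun C f g = 0 := by
  refine Cfsg.Agent.H68.indFun_eq_zero _ _ fun x hm => hr ?_
  have hconj : x⁻¹ * g * x ∉ Subgroup.center SL₂ := fun hz => hn (by
    have := Subgroup.Normal.conj_mem inferInstance _ hz x
    simpa [mul_assoc] using this)
  have := (h.noncentral hm hconj).2.1
  have e := sl2_trace_conj x⁻¹ g
  rw [inv_inv] at e
  rwa [e] at this

/-- A torus has exactly one non-trivial linear character of order two. -/
lemma exists_quadratic (h : IsNonsplit C) (hq : q % 2 = 1) :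
    ∃ θ₀ : C →* ℂˣ, (∃ c, θ₀ c ≠ 1) ∧ (∀ c, θ₀ c ^ 2 = 1) ∧
      ∀ c : C, (c ^ ((q + 1) / 2) = 1 → θ₀ c = 1) ∧
        (c ^ ((q + 1) / 2) ≠ 1 → (θ₀ c : ℂ) = -1) := by
  classical
  haveI := h.ns_cyclic
  obtain ⟨g, hg⟩ := IsCyclic.exists_generator (α := C)
  have hgo : orderOf g = q + 1 := by
    rw [orderOf_eq_card_of_forall_mem_zpowers hg, h.ns_card]
  have hdvd : orderOf (-1 : ℂˣ) ∣ Nat.card C := by
    refine (orderOf_dvd_of_pow_eq_one (n := 2) (by simp)).trans ?_
    rw [h.ns_card]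
    omega
  refine ⟨monoidHomOfForallMemZpowers hg (g' := (-1 : ℂˣ)) (by rwa [orderOf_eq_card_of_forall_mem_zpowers hg]), ?_⟩
  generalize_proofs hh1
  set θ := monoidHomOfForallMemZpowers hg hh1 with hθ
  have hθg : θ g = -1 := monoidHomOfForallMemZpowers_apply_gen hg hh1
  refine ⟨⟨g, ?_⟩, fun c => ?_, fun c => ?_⟩
  · rw [hθg]
    intro e
    have := congrArg Units.val e
    norm_num at this
  · obtain ⟨i, rfl⟩ := hg c
    rw [map_zpow, hθg, ← zpow_natCast, ← _root_.zpow_mul, mul_comm, _root_.zpow_mul, zpow_natCast]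
    simp
  · obtain ⟨i, rfl⟩ := hg c
    have hpow : (g ^ i) ^ ((q + 1) / 2) = 1 ↔ Even i := by
      rw [← zpow_natCast, ← _root_.zpow_mul, ← orderOf_dvd_iff_zpow_eq_one, hgo]
      obtain ⟨m, hm⟩ : ∃ m, q + 1 = 2 * m := ⟨(q + 1) / 2, by omega⟩
      rw [hm, Nat.mul_div_cancel_left m two_pos, Nat.cast_mul,
        Int.mul_dvd_mul_iff_right (by omega), even_iff_two_dvd]
      norm_num
    constructor
    · intro e
      rw [map_zpow, hθg]
      exact (hpow.1 e).neg_one_zpow
    · intro e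
      rw [map_zpow, hθg]
      rw [(Int.not_even_iff_odd.1 fun he => e (hpow.2 he)).neg_one_zpow, Units.val_neg,
        Units.val_one]

end IsNonsplit

end Cfsg.Agent.H69
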