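import Cfsg.Agent.H68.SL2ByDegree
import Cfsg.Agent.H69.SL2SylowTwo
import Cfsg.Agent.H69.McKay
import Cfsg.Agent.S2437
import Cfsg.Agent.S2431

/-!
# The McKay numbers of `SL₂(q)`, `q` odd
-/

set_option autoImplicit false

namespace Cfsg.Agent.H69

open Matrix Matrix.SpecialLinearGroup Cfsg.Agent.H69.McKay
open scoped commutatorElement

variable {F : Type*} [Field F] [Fintype F]

local notation "SL₂" => Matrix.SpecialLinearGroup (Fin 2) F
local notation "M₂" => Matrix (Fin 2) (Fin 2) F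
local notation "q" => Fintype.card F

/-- A sum over the character degrees of `SL₂(q)`, `q = 2k + 1`. -/
theorem sum_charDegree_sl2_odd (h2 : (2 : F) ≠ 0) {k : ℕ} (hk : q = 2 * k + 1) (f : ℕ → ℕ) :
    ∑ χ : Cfsg.IrrCharacter SL₂, f (Cfsg.charDegree (χ : SL₂ → ℂ)) =
      f 1 + f (2 * k + 1) + (k - 1) * f (2 * k + 2) + 2 * f (k + 1) + 2 * f k + k * f (2 * k) := by
  classical
  obtain ⟨k', n, ψ, hk', hk1, -, hn, hψ⟩ :=
    Cfsg.Agent.H68.exists_odd_setup (F := F) (Nat.odd_iff.2 (odd_card_of_two_ne_zero h2))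
  obtain rfl : k = k' := by omega
  obtain ⟨H₁, H₂, C₁, C₂, C, hH, hC, hc, hP, hconj, hsum, -, -, -, -, dH₁, dH₂, dC₁, dC₂, hCall,
    hCorth, hcases⟩ := Cfsg.Agent.H68.sl2_odd_cases hk hn hψ
  have cd : ∀ {χ : Cfsg.IrrCharacter SL₂} {d : ℕ}, χ.1 1 = (d : ℂ) →
      Cfsg.charDegree (χ : SL₂ → ℂ) = d := by
    intro χ d h
    simp [Cfsg.charDegree, h]
  have dP : ∀ χ ∈ Cfsg.Agent.H68.sPSSet F, χ.1 1 = ((2 * k + 2 : ℕ) : ℂ) := by
    intro χ h
    obtain ⟨α, -, e⟩ := Cfsg.Agent.H68.mem_sPSSet.1 h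
    rw [e, Cfsg.Agent.H68.sPS_one, hk]; push_cast; ring
  have dS : (Cfsg.Agent.H68.sStI F).1 1 = ((2 * k + 1 : ℕ) : ℂ) := by
    rw [← hk]; exact Cfsg.Agent.H68.sSt_one
  have dT : (Cfsg.Agent.H68.sTriv F).1 1 = ((1 : ℕ) : ℂ) := by rw [Nat.cast_one]; rfl
  have dC : ∀ χ ∈ C, χ.1 1 = ((2 * k : ℕ) : ℂ) := fun χ h => (hCall χ h).1
  -- a two-element pair is not met by a set of another degree
  have ne_of : ∀ {x y : Cfsg.IrrCharacter SL₂} {a b : ℕ},
      x.1 1 = (a : ℂ) → y.1 1 = (b : ℂ) → a ≠ b → x ≠ y := by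
    intro x y a b hx hy hab e
    subst e
    exact hab (Nat.cast_injective (hx.symm.trans hy))
  have hTC : Cfsg.Agent.H68.sTriv F ≠ C₁ ∧ Cfsg.Agent.H68.sTriv F ≠ C₂ := by
    refine ⟨fun e => ?_, fun e => ?_⟩
    · have h1 := (hCorth 1).1
      rw [← e, show (Cfsg.Agent.H68.sTriv F).1 = fun _ => (1 : ℂ) from rfl,
        Cfsg.Agent.H68.classInner_one_sPS, if_pos rfl] at h1
      exact one_ne_zero h1
    · have h1 := (hCorth 1).2
      rw [← e, show (Cfsg.Agent.H68.sTriv F).1 = fun _ => (1 : ℂ) from rfl,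
        Cfsg.Agent.H68.classInner_one_sPS, if_pos rfl] at h1
      exact one_ne_zero h1
  have hHc : ∀ D, D = H₁ ∨ D = H₂ → D ∉ C := by
    intro D hD hmem
    have h1 := (hCall D hmem).2.2 (Cfsg.Agent.H68.qchar F)
    rw [hsum, Cfsg.Agent.H26.classInner_add_right, Cfsg.Agent.H26.classInner_irr,
      Cfsg.Agent.H26.classInner_irr] at h1
    rcases hD with rfl | rfl
    · rw [if_pos rfl, if_neg hH] at h1; norm_num at h1
    · rw [if_neg (Ne.symm hH), if_pos rfl] at h1; norm_num at h1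
  have hlist : (Finset.univ : Finset (Cfsg.IrrCharacter SL₂)) =
      ({Cfsg.Agent.H68.sTriv F} : Finset _) ∪ ({Cfsg.Agent.H68.sStI F} ∪
        (Cfsg.Agent.H68.sPSSet F ∪ (({H₁, H₂} : Finset _) ∪ (({C₁, C₂} : Finset _) ∪ C)))) := by
    refine (Finset.eq_univ_of_forall fun x => ?_).symm
    simp only [Finset.mem_union, Finset.mem_singleton, Finset.mem_insert]
    rcases hcases x with ⟨h, -⟩ | ⟨h, -⟩ | ⟨h, -⟩ | ⟨h, -⟩ | ⟨h, -⟩ | ⟨h, -⟩ <;> tauto
  have hsumC : ∑ χ ∈ C, f (Cfsg.charDegree (χ : SL₂ → ℂ)) = k * f (2 * k) := by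
    rw [Finset.sum_congr rfl fun χ h => by rw [cd (dC χ h)], Finset.sum_const, hc, smul_eq_mul]
  have hsumP : ∑ χ ∈ Cfsg.Agent.H68.sPSSet F, f (Cfsg.charDegree (χ : SL₂ → ℂ)) =
      (k - 1) * f (2 * k + 2) := by
    rw [Finset.sum_congr rfl fun χ h => by rw [cd (dP χ h)], Finset.sum_const,
      show (Cfsg.Agent.H68.sPSSet F).card = k - 1 by omega, smul_eq_mul]
  rw [hlist, Finset.sum_union, Finset.sum_union, Finset.sum_union, Finset.sum_union,
    Finset.sum_union, Finset.sum_singleton, Finset.sum_singleton, Finset.sum_pair hH,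
    Finset.sum_pair hC, cd dT, cd dS, hsumP, cd dH₁, cd dH₂, cd dC₁, cd dC₂, hsumC]
  · ring
  · -- `C₁, C₂` and `C`
    rw [Finset.disjoint_left]
    intro a ha hb
    simp only [Finset.mem_insert, Finset.mem_singleton] at ha
    rcases ha with rfl | rfl
    · exact ne_of dC₁ (dC _ hb) (by omega) rfl
    · exact ne_of dC₂ (dC _ hb) (by omega) rfl
  · rw [Finset.disjoint_left]
    intro a ha hb
    simp only [Finset.mem_insert, Finset.mem_singleton, Finset.mem_union] at ha hb
    rcases hb with (rfl | rfl) | hb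
    · rcases ha with e | e
      · exact ne_of dC₁ dH₁ (by omega) e
      · exact ne_of dC₁ dH₂ (by omega) e
    · rcases ha with e | e
      · exact ne_of dC₂ dH₁ (by omega) e
      · exact ne_of dC₂ dH₂ (by omega) e
    · exact hHc a ha hb
  · rw [Finset.disjoint_left]
    intro a ha hb
    simp only [Finset.mem_insert, Finset.mem_singleton, Finset.mem_union] at hb
    rcases hb with (rfl | rfl) | (rfl | rfl) | hb
    · exact ne_of dH₁ (dP _ ha) (by omega) rfl
    · exact ne_of dH₂ (dP _ ha) (by omega) rfl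
    · exact ne_of dC₁ (dP _ ha) (by omega) rfl
    · exact ne_of dC₂ (dP _ ha) (by omega) rfl
    · exact ne_of (dC _ hb) (dP _ ha) (by omega) rfl
  · rw [Finset.disjoint_left]
    intro a ha hb
    simp only [Finset.mem_insert, Finset.mem_singleton, Finset.mem_union] at ha hb
    subst ha
    rcases hb with hb | (hb | hb) | (hb | hb) | hb
    · exact ne_of dS (dP _ hb) (by omega) rfl
    · exact ne_of dS dH₁ (by omega) hb
    · exact ne_of dS dH₂ (by omega) hb
    · exact ne_of dS dC₁ (by omega) hb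
    · exact ne_of dS dC₂ (by omega) hb
    · exact ne_of dS (dC _ hb) (by omega) rfl
  · rw [Finset.disjoint_left]
    intro a ha hb
    simp only [Finset.mem_insert, Finset.mem_singleton, Finset.mem_union] at ha hb
    subst ha
    rcases hb with hb | hb | (hb | hb) | (hb | hb) | hb
    · exact ne_of dT dS (by omega) hb
    · exact ne_of dT (dP _ hb) (by omega) rfl
    · exact ne_of dT dH₁ (by omega) hb
    · exact ne_of dT dH₂ (by omega) hb
    · exact hTC.1 hb
    · exact hTC.2 hb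
    · exact ne_of dT (dC _ hb) (by omega) rfl

/-- The number of characters of `SL₂(q)` of degree prime to `ℓ`. -/
theorem primeDegCount_sl2 (h2 : (2 : F) ≠ 0) {k : ℕ} (hk : q = 2 * k + 1) (ℓ : ℕ) :
    primeDegCount ℓ SL₂ =
      (if ℓ ∣ 1 then 0 else 1) + (if ℓ ∣ 2 * k + 1 then 0 else 1) +
        (k - 1) * (if ℓ ∣ 2 * k + 2 then 0 else 1) + 2 * (if ℓ ∣ k + 1 then 0 else 1) +
        2 * (if ℓ ∣ k then 0 else 1) + k * (if ℓ ∣ 2 * k then 0 else 1) := by
  classical
  rw [← sum_charDegree_sl2_odd h2 hk (fun d => if ℓ ∣ d then 0 else 1), primeDegCount,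
    Nat.card_eq_fintype_card, Fintype.card_subtype, Finset.card_filter]
  exact Finset.sum_congr rfl fun χ _ => by split_ifs <;> rfl

/-- At the characteristic, the count for the normaliser of a Sylow subgroup. -/
theorem primeDegCount_normalizer_char (h2 : (2 : F) ≠ 0) (p : ℕ) [Fact p.Prime] [CharP F p]
    (S : Sylow p SL₂) :
    primeDegCount p (Subgroup.normalizer ((S : Subgroup SL₂) : Set SL₂)) = q + 3 := by
  let U : Subgroup SL₂ :=
    { carrier := {g | (g : M₂) 1 0 = 0 ∧ (g : M₂) 0 0 = 1}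
      one_mem' := by simp
      mul_mem' := fun {a b} ha hb => by
        simp only [Set.mem_setOf_eq, coe_mul, Matrix.mul_apply, Fin.sum_univ_two, ha.1, ha.2,
          hb.1, hb.2]
        simp
      inv_mem' := fun {a} ha => by
        have hd := a.2
        rw [Matrix.det_fin_two, ha.1, ha.2, mul_zero, sub_zero, one_mul] at hd
        simp [Matrix.SpecialLinearGroup.coe_inv, Matrix.adjugate_fin_two, ha.1, hd] }
  have hUe : ∀ g ∈ U, g = Cfsg.Agent.H68.sl2U ((g : M₂) 0 1) := by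
    intro g hg
    have hd := g.2
    rw [Matrix.det_fin_two, hg.1, hg.2, mul_zero, sub_zero, one_mul] at hd
    apply Subtype.ext
    ext i j
    fin_cases i <;> fin_cases j <;> simp [hg.1, hg.2, hd]
  have hUm : ∀ x : F, Cfsg.Agent.H68.sl2U x ∈ U := fun x => by
    constructor <;> simp
  have hUc : Nat.card U = q := by
    rw [← Nat.card_eq_fintype_card]
    exact Nat.card_eq_of_bijective (fun g : U => ((g : SL₂) : M₂) 0 1)
      ⟨fun a b h => Subtype.ext (by rw [hUe a a.2, hUe b b.2]; exact congrArg _ h),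
        fun x => ⟨⟨_, hUm x⟩, by simp⟩⟩
  obtain ⟨n, -, hn⟩ := FiniteField.card F p
  have hUp : IsPGroup p U := IsPGroup.of_card (hUc.trans hn)
  have hUi : ¬ p ∣ U.index := by
    have h1 := U.card_mul_index
    rw [hUc, card_sl2', mul_assoc] at h1
    rw [Nat.eq_of_mul_eq_mul_left Fintype.card_pos h1]
    intro hp
    have hq : p ∣ q := hn ▸ dvd_pow_self p n.ne_zero
    rcases (Fact.out : p.Prime).dvd_mul.1 hp with h | h
    · have := Nat.dvd_sub hq h
      rw [Nat.sub_sub_self Fintype.card_pos] at this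
      exact (Fact.out : p.Prime).not_dvd_one this
    · exact (Fact.out : p.Prime).not_dvd_one ((Nat.dvd_add_right hq).1 h)
  haveI : Fintype SL₂ := Fintype.ofFinite _
  rw [primeDegCount_normalizer_eq S (hUp.toSylow hUi), primeDegCount_normalizer_of_comm _ ?comm]
  case comm =>
    intro a ha b hb
    rw [hUe a ha, hUe b hb]
    exact Subtype.ext (by simp [add_comm])
  rw [show Subgroup.normalizer (((hUp.toSylow hUi : Sylow p SL₂) : Subgroup SL₂) : Set SL₂) =
    (Cfsg.upperTriangularGL 2 F).comap Matrix.SpecialLinearGroup.toGL from ?_]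
  · exact Cfsg.Agent.S2437.result (Nat.odd_iff.2 (odd_card_of_two_ne_zero h2))
  show Subgroup.normalizer (U : Set SL₂) = _
  refine le_antisymm (fun g hg => ?_) (fun g hg => ?_)
  · rw [Cfsg.Agent.H68.sl2_mem_upper_iff]
    have h := (Subgroup.mem_normalizer_iff.1 hg _).1 (hUm 1)
    have h10 := h.1
    simp [Matrix.SpecialLinearGroup.coe_inv, Matrix.adjugate_fin_two, Matrix.mul_apply,
      Fin.sum_univ_two] at h10
    exact mul_self_eq_zero.1 (by linear_combination -h10)
  · rw [Cfsg.Agent.H68.sl2_mem_upper_iff] at hg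
    have key : ∀ g : SL₂, (g : M₂) 1 0 = 0 → ∀ u ∈ U, g * u * g⁻¹ ∈ U := by
      intro g hg u hu
      have hd := g.2
      rw [Matrix.det_fin_two, hg, mul_zero, sub_zero] at hd
      rw [hUe u hu]
      constructor <;> simp [Matrix.SpecialLinearGroup.coe_inv, Matrix.adjugate_fin_two,
        Matrix.mul_apply, Fin.sum_univ_two, hg, hd]
    rw [Subgroup.mem_normalizer_iff]
    refine fun u => ⟨key g hg u, fun h => ?_⟩
    have := key g⁻¹ (by simp [Matrix.SpecialLinearGroup.coe_inv, Matrix.adjugate_fin_two, hg]) _ h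
    simpa [mul_assoc] using this

/-- A non-trivial Sylow subgroup for an odd non-characteristic prime lives in a maximal torus. -/
theorem sylow_odd_torus {ℓ : ℕ} [Fact ℓ.Prime] (hℓ : ℓ ≠ 2) (hd : ℓ ∣ q - 1 ∨ ℓ ∣ q + 1)
    (P : Sylow ℓ SL₂) :
    ∃ z : SL₂, (z : M₂).trace ^ 2 ≠ 4 ∧
      (P : Subgroup SL₂) ≤ Subgroup.centralizer ({z} : Set SL₂) ∧
      Subgroup.normalizer ((P : Subgroup SL₂) : Set SL₂) =
        Subgroup.normalizer ((Subgroup.centralizer ({z} : Set SL₂)) : Set SL₂) ∧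
      ℓ ∣ Nat.card (Subgroup.centralizer ({z} : Set SL₂)) := by
  obtain ⟨p, hpc⟩ := CharP.exists F
  obtain ⟨n, hpp, hn⟩ := FiniteField.card F p
  haveI := Fact.mk hpp
  have hl1 : 1 < ℓ := (Fact.out : ℓ.Prime).one_lt
  have hl2 : ¬ ℓ ∣ 2 := fun h => hℓ ((Nat.prime_dvd_prime_iff_eq Fact.out Nat.prime_two).1 h)
  have hlp : ∀ k, Nat.Coprime (ℓ ^ k) p := by
    intro k
    refine Nat.Coprime.pow_left _ (((Fact.out : ℓ.Prime).coprime_iff_not_dvd).2 fun h => ?_)
    have hlq : ℓ ∣ q := h.trans (hn ▸ dvd_pow_self p n.ne_zero)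
    rcases hd with hd | hd
    · have := Nat.dvd_sub hlq hd
      rw [Nat.sub_sub_self Fintype.card_pos] at this
      exact (Fact.out : ℓ.Prime).not_dvd_one this
    · exact (Fact.out : ℓ.Prime).not_dvd_one ((Nat.dvd_add_right hlq).1 hd)
  have hdvd : ℓ ∣ Nat.card SL₂ := by
    rw [card_sl2']
    rcases hd with h | h
    · exact dvd_mul_of_dvd_left (dvd_mul_of_dvd_right h _) _
    · exact dvd_mul_of_dvd_right h _
  haveI : Nontrivial (P : Subgroup SL₂) :=
    (Subgroup.nontrivial_iff_ne_bot _).2 (P.ne_bot_of_dvd_card hdvd)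
  haveI := P.isPGroup'.center_nontrivial
  obtain ⟨⟨y, hy⟩, hy1⟩ := exists_ne (1 : Subgroup.center (P : Subgroup SL₂))
  obtain ⟨k, hk⟩ := IsPGroup.iff_orderOf.1 P.isPGroup' y
  have hk0 : k ≠ 0 := by
    rintro rfl
    rw [pow_zero, orderOf_eq_one_iff] at hk
    exact hy1 (Subtype.ext hk)
  have hzo : orderOf (y : SL₂) = ℓ ^ k := by rw [Subgroup.orderOf_coe, hk]
  have hzns : ¬ IsScalar2 ((y : SL₂) : M₂) := by
    intro hs
    have h2 : (y : SL₂) ^ 2 = 1 := by
      rcases (sl2_mem_center_iff_eq _).1 ((sl2_mem_center_iff _).2 hs) with e | e <;> rw [e] <;>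
        simp
    exact hl2 ((dvd_pow_self ℓ hk0).trans (hzo ▸ orderOf_dvd_of_pow_eq_one h2))
  have ht : ((y : SL₂) : M₂).trace ^ 2 ≠ 4 := by
    have h := Cfsg.Agent.H6.ss_of_coprime_order p (g := (y : SL₂)) (by rw [hzo]; exact hlp k)
      (fun hs => hzns hs)
    rw [Cfsg.Agent.H6.tr, ← Matrix.trace_fin_two] at h
    exact h
  have hPC : (P : Subgroup SL₂) ≤ Subgroup.centralizer ({(y : SL₂)} : Set SL₂) := by
    intro x hx
    rw [Subgroup.mem_centralizer_singleton_iff]
    exact congrArg Subtype.val (Subgroup.mem_center_iff.1 hy ⟨x, hx⟩)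
  obtain ⟨-, hinv, -, -⟩ := sl2_torus_normalizer ht
  refine ⟨(y : SL₂), ht, hPC, le_antisymm ?_ ?_, ?_⟩
  · intro x hx
    rw [sl2_mem_normalizer_centralizer_iff ht]
    have hxz : x * y * x⁻¹ ∈ Subgroup.centralizer ({(y : SL₂)} : Set SL₂) :=
      hPC (((Subgroup.mem_normalizer_iff.1 hx) y).1 y.2)
    exact Cfsg.Agent.H6.eq_or_eq_inv_of_tr_eq (g := (y : SL₂)) (h := x * y * x⁻¹)
      (by rw [Cfsg.Agent.H6.tr, ← Matrix.trace_fin_two]; exact ht)
      (fun hs => hzns hs) (Cfsg.Agent.H6.mem_cent.2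
        (Subgroup.mem_centralizer_singleton_iff.1 hxz).symm) (Cfsg.Agent.H6.tr_conj x y)
  · have main : ∀ x ∈ Subgroup.normalizer
        ((Subgroup.centralizer ({(y : SL₂)} : Set SL₂)) : Set SL₂),
          ∀ w ∈ (P : Subgroup SL₂), x * w * x⁻¹ ∈ (P : Subgroup SL₂) := by
      intro x hx w hw
      by_cases hxC : x ∈ Subgroup.centralizer ({(y : SL₂)} : Set SL₂)
      · rw [sl2_centralizer_comm hzns hxC (hPC hw), mul_inv_cancel_right]
        exact hw
      · rw [hinv x hx hxC w (hPC hw)]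
        exact inv_mem hw
    intro x hx
    rw [Subgroup.mem_normalizer_iff]
    refine fun w => ⟨main x hx w, fun h => ?_⟩
    have := main x⁻¹ (inv_mem hx) _ h
    simpa [mul_assoc] using this
  · have h := Subgroup.orderOf_dvd_natCard (Subgroup.centralizer ({(y : SL₂)} : Set SL₂))
      (sl2_self_mem_centralizer (y : SL₂))
    rw [hzo] at h
    exact (dvd_pow_self ℓ hk0).trans h

/-- For an odd non-characteristic prime the count is `(n + 6) / 2`, `n` the order of the torus. -/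
theorem primeDegCount_normalizer_odd (h2 : (2 : F) ≠ 0) {ℓ : ℕ} [Fact ℓ.Prime] (hℓ : ℓ ≠ 2)
    (hd : ℓ ∣ q - 1 ∨ ℓ ∣ q + 1) (P : Sylow ℓ SL₂) :
    ∃ m, (m = q - 1 ∨ m = q + 1) ∧ ℓ ∣ m ∧
      2 * primeDegCount ℓ (Subgroup.normalizer ((P : Subgroup SL₂) : Set SL₂)) = m + 6 := by
  obtain ⟨z, ht, hPC, hN, hl⟩ := sylow_odd_torus hℓ hd P
  refine ⟨_, card_centralizer_semisimple ht, hl, ?_⟩
  haveI : Fintype SL₂ := Fintype.ofFinite _
  rw [primeDegCount_normalizer_of_comm P
    (fun a ha b hb => sl2_centralizer_comm (not_isScalar2_of_trace ht) (hPC ha) (hPC hb)), hN]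
  exact (sl2_torus_normalizer ht).2.2.2 h2

/-- At the prime two the count for the normaliser is four. -/
theorem primeDegCount_normalizer_two (h2 : (2 : F) ≠ 0) (S : Sylow 2 SL₂) :
    primeDegCount 2 (Subgroup.normalizer ((S : Subgroup SL₂) : Set SL₂)) = 4 := by
  classical
  haveI := Fact.mk Nat.prime_two
  -- a cyclic subgroup of index two in some Sylow subgroup
  set v := (Nat.card SL₂).factorization 2 with hv
  have hcard : ∀ T : Sylow 2 SL₂, Nat.card T = 2 ^ v := fun T => T.card_eq_multiplicity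
  obtain ⟨a, ha, hva, ha2, g, hg, hga⟩ : ∃ a, 2 ≤ a ∧ v = a + 1 ∧
      ((q % 8 = 3 ∨ q % 8 = 5) → a = 2) ∧ ∃ g : SL₂,
      (g : M₂).trace ^ 2 ≠ 4 ∧ 2 ^ a ∣ Nat.card (Subgroup.centralizer ({g} : Set SL₂)) := by
    have hq2 := odd_card_of_two_ne_zero h2
    have hq1 := Fintype.one_lt_card (α := F)
    obtain ⟨g, hg, n, hgn, hn4, ⟨r, hr, hG⟩, hn8⟩ : ∃ g : SL₂, (g : M₂).trace ^ 2 ≠ 4 ∧ ∃ n,
        Nat.card (Subgroup.centralizer ({g} : Set SL₂)) = n ∧ 4 ∣ n ∧
        (∃ r, r % 2 = 1 ∧ Nat.card SL₂ = n * (2 * r)) ∧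
        ((q % 8 = 3 ∨ q % 8 = 5) → ¬ 8 ∣ n) := by
      obtain ⟨m, hm⟩ : ∃ m, q = 2 * m + 1 := ⟨q / 2, by omega⟩
      rcases (by omega : q % 4 = 1 ∨ q % 4 = 3) with h | h
      · obtain ⟨g, hg, hc⟩ := exists_split_element (F := F) (by omega)
        exact ⟨g, hg, _, hc, by omega, ⟨q * (m + 1), by rw [Nat.mul_mod]; simp [show q % 2 = 1 by omega,
          show (m + 1) % 2 = 1 by omega], by rw [card_sl2', hm]; ring⟩, by omega⟩
      · obtain ⟨g, hg, hc⟩ := exists_elliptic_element (F := F)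
        exact ⟨g, hg, _, hc, by omega, ⟨q * m, by rw [Nat.mul_mod]; simp [show q % 2 = 1 by omega,
          show m % 2 = 1 by omega], by rw [card_sl2', hm, Nat.add_sub_cancel]; ring⟩, by omega⟩
    have hn0 : n ≠ 0 := by rw [← hgn]; exact Nat.card_pos.ne'
    obtain ⟨a, m, hm, hnm⟩ := Nat.exists_eq_two_pow_mul_odd hn0
    have hm' := Nat.odd_iff.1 hm
    have ha : 2 ≤ a := by
      by_contra hlt
      rw [hnm] at hn4
      rcases (by omega : a = 0 ∨ a = 1) with rfl | rfl <;> omega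
    refine ⟨a, ha, ?_, fun h => ?_, g, hg, by rw [hgn, hnm]; exact dvd_mul_right _ _⟩
    · obtain ⟨S₀⟩ : Nonempty (Sylow 2 SL₂) := inferInstance
      have := sylow_two_card_of_eq S₀ (v := a + 1) (r := m * r)
        (by rw [Nat.mul_mod, hm', hr]) (by rw [hG, hnm]; ring)
      rw [hcard S₀] at this
      exact Nat.pow_right_injective le_rfl this
    · by_contra hne
      apply hn8 h
      rw [hnm]
      exact dvd_mul_of_dvd_left (pow_dvd_pow 2 (show 3 ≤ a by omega)) m
  obtain ⟨x, hx, -⟩ := exists_torus_generator hg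
  obtain ⟨c, hc⟩ := hga
  set y := x ^ c with hy
  have hyo : orderOf y = 2 ^ a := by
    have hc0 : c ≠ 0 := by
      rintro rfl
      rw [mul_zero] at hc
      exact Nat.card_pos.ne' hc
    rw [hy, orderOf_pow' x hc0, hx, hc, Nat.gcd_mul_left_left, Nat.mul_div_cancel _ (by omega)]
  obtain ⟨T, hT⟩ := (IsPGroup.of_card (p := 2) (n := a)
    (G := Subgroup.zpowers y) (by rw [Nat.card_zpowers, hyo])).exists_le_sylow
  have hyT : y ∈ (T : Subgroup SL₂) := hT (Subgroup.mem_zpowers y)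
  rw [primeDegCount_normalizer_eq S T]
  obtain ⟨hnorm, w, hwT, hwC, hww, hcov⟩ :=
    sylow_two_structure h2 T ha ((hcard T).trans (by rw [hva])) hyT hyo
  obtain ⟨-, hinv, -, -⟩ := sl2_torus_normalizer (ss_of_two_pow h2 hyo ha)
  set N := Subgroup.normalizer ((T : Subgroup SL₂) : Set SL₂) with hNdef
  haveI : Fintype N := Fintype.ofFinite _
  obtain ⟨P, hP, hn, hcount⟩ := primeDegCount_normalizer T
  rw [hcount]
  set K := ⁅(P : Subgroup N), (P : Subgroup N)⁆ with hK
  set A := (P : Subgroup N).map (QuotientGroup.mk' K) with hA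
  haveI : Fintype (N ⧸ K) := Fintype.ofFinite _
  haveI hAn : A.Normal := hn.map _ (QuotientGroup.mk'_surjective K)
  have hAab : ∀ u ∈ A, ∀ u' ∈ A, u * u' = u' * u := by
    rintro _ ⟨u, hu, rfl⟩ _ ⟨u', hu', rfl⟩
    rw [← commutatorElement_eq_one_iff_mul_comm, ← map_commutatorElement]
    exact (QuotientGroup.eq_one_iff _).2 (Subgroup.commutator_mem_commutator hu hu')
  -- the commutator subgroup of `T` is `⟨y²⟩`, of index four
  have hK' : K.map N.subtype = Subgroup.zpowers (y ^ 2) := by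
    have hPT : (P : Subgroup N).map N.subtype = (T : Subgroup SL₂) := by
      rw [hP, Subgroup.subgroupOf_map_subtype, inf_eq_left.2 Subgroup.le_normalizer]
    rw [hK, Subgroup.map_commutator, hPT]
    have hzp : ∀ u ∈ Subgroup.zpowers y, w * u * w⁻¹ = u⁻¹ := fun u hu =>
      hinv w (hnorm w hwT) hwC u (Subgroup.zpowers_le.2 (sl2_self_mem_centralizer y) hu)
    have hwyy : w * w ∈ Subgroup.zpowers (y ^ 2) := by
      refine ⟨(2 ^ (a - 2) : ℕ), ?_⟩
      have hneg : (y ^ 2 ^ (a - 1)) = -1 := by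
        have h1 : (y ^ 2 ^ (a - 1)) * (y ^ 2 ^ (a - 1)) = 1 := by
          rw [← pow_add, ← two_mul, ← pow_succ', show a - 1 + 1 = a by omega, ← hyo,
            pow_orderOf_eq_one]
        refine (sl2_eq_one_or_neg_one_of_sq h2 h1).resolve_left fun e => ?_
        have := Nat.le_of_dvd (by positivity) (hyo ▸ orderOf_dvd_of_pow_eq_one e)
        have := Nat.pow_lt_pow_right (show 1 < 2 by norm_num) (show a - 1 < a by omega)
        omega
      show (y ^ 2) ^ ((2 ^ (a - 2) : ℕ) : ℤ) = w * w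
      rw [zpow_natCast, ← pow_mul, ← pow_succ', show a - 2 + 1 = a - 1 by omega, hneg, hww]
    refine le_antisymm ?_ ?_
    · rw [Subgroup.commutator_le]
      intro s hs t ht
      have key : ∀ u ∈ Subgroup.zpowers y, u * u ∈ Subgroup.zpowers (y ^ 2) := by
        rintro _ ⟨i, rfl⟩
        refine ⟨i, ?_⟩
        show (y ^ 2) ^ i = y ^ i * y ^ i
        rw [← zpow_natCast, ← _root_.zpow_mul, ← _root_.zpow_add]
        congr 1
        push_cast
        ring
      have hcz : ∀ u ∈ Subgroup.zpowers y, ∀ u' ∈ Subgroup.zpowers y, u * u' = u' * u := by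
        rintro _ ⟨i, rfl⟩ _ ⟨j, rfl⟩
        exact zpow_mul_comm y i j
      have hwu : ∀ u ∈ Subgroup.zpowers y, w * u = u⁻¹ * w := fun u hu =>
        mul_inv_eq_iff_eq_mul.1 (hzp u hu)
      rcases hcov s hs with h | h <;> rcases hcov t ht with h' | h'
      · rw [commutatorElement_eq_one_iff_mul_comm.2 (hcz s h t h')]
        exact one_mem _
      · obtain ⟨u', hu', rfl⟩ : ∃ u', u' ∈ Subgroup.zpowers y ∧ w * u' = t :=
          ⟨_, h', mul_inv_cancel_left w t⟩
        have e : ⁅s, w * u'⁆ = s * s := by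
          rw [commutatorElement_def, _root_.mul_inv_rev,
            show s * (w * u') * s⁻¹ * (u'⁻¹ * w⁻¹) = s * (w * (u' * s⁻¹) * u'⁻¹ * w⁻¹) by group,
            hcz u' hu' s⁻¹ (inv_mem h),
            show w * (s⁻¹ * u') * u'⁻¹ * w⁻¹ = w * s⁻¹ * w⁻¹ by group, hzp _ (inv_mem h), inv_inv]
        rw [e]; exact key s h
      · obtain ⟨u, hu, rfl⟩ : ∃ u, u ∈ Subgroup.zpowers y ∧ w * u = s :=
          ⟨_, h, mul_inv_cancel_left w s⟩
        have e : ⁅w * u, t⁆ = t⁻¹ * t⁻¹ := by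
          rw [commutatorElement_def,
            show w * u * t * (w * u)⁻¹ * t⁻¹ = w * (u * t * u⁻¹) * w⁻¹ * t⁻¹ by group,
            hcz u hu t h', mul_inv_cancel_right, hzp t h']
        rw [e]; exact key _ (inv_mem h')
      · obtain ⟨u, hu, rfl⟩ : ∃ u, u ∈ Subgroup.zpowers y ∧ w * u = s :=
          ⟨_, h, mul_inv_cancel_left w s⟩
        obtain ⟨u', hu', rfl⟩ : ∃ u', u' ∈ Subgroup.zpowers y ∧ w * u' = t :=
          ⟨_, h', mul_inv_cancel_left w t⟩
        have e : ⁅w * u, w * u'⁆ = (u⁻¹ * u') * (u⁻¹ * u') := by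
          have e1 : w * u * (w * u') = (u⁻¹ * u') * (w * w) := by
            rw [hwu u hu, show u⁻¹ * w * (w * u') = u⁻¹ * (w * w) * u' by group, hww]
            simp
          have e2 : (w * u)⁻¹ * (w * u')⁻¹ = ((u'⁻¹ * u) * (w * w))⁻¹ := by
            rw [← _root_.mul_inv_rev]
            congr 1
            rw [hwu u' hu', show u'⁻¹ * w * (w * u) = u'⁻¹ * (w * w) * u by group, hww]
            simp
          rw [commutatorElement_def, mul_assoc (w * u * (w * u')), e1, e2, _root_.mul_inv_rev,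
            show u⁻¹ * u' * (w * w) * ((w * w)⁻¹ * (u'⁻¹ * u)⁻¹) =
              (u⁻¹ * u') * (u⁻¹ * u') by group]
        rw [e]; exact key _ (mul_mem (inv_mem hu) hu')
    · rw [Subgroup.zpowers_le]
      have hy2 : y ^ 2 = ⁅y, w⁆ := by
        rw [commutatorElement_def, mul_assoc (y * w), mul_assoc y, ← mul_assoc w,
          hzp _ (inv_mem (Subgroup.mem_zpowers y)), inv_inv, sq]
      rw [hy2]
      exact Subgroup.commutator_mem_commutator hyT hwT
  have hy2o : orderOf (y ^ 2) = 2 ^ (a - 1) := by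
    rw [orderOf_pow' y (by norm_num), hyo, Nat.gcd_eq_right (dvd_pow_self 2 (by omega))]
    nth_rewrite 2 [← pow_one 2]
    rw [Nat.pow_div (by omega) (by norm_num)]
  have hKc : Nat.card K = 2 ^ (a - 1) := by
    rw [Nat.card_congr (K.equivMapOfInjective N.subtype N.subtype_injective).toEquiv, hK',
      Nat.card_zpowers, hy2o]
  have hPc : Nat.card P = 2 ^ (a + 1) := by
    rw [show Nat.card P = Nat.card (P : Subgroup N) from rfl, hP,
      Nat.card_congr (Subgroup.subgroupOfEquivOfLe Subgroup.le_normalizer).toEquiv]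
    exact (hcard T).trans (by rw [hva])
  have hQ : Nat.card (N ⧸ K) * 2 ^ (a - 1) = Nat.card N := by
    rw [← hKc, ← Subgroup.card_eq_card_quotient_mul_card_subgroup]
  have hpow : 2 ^ (a + 1) = 4 * 2 ^ (a - 1) := by
    rw [show a + 1 = 2 + (a - 1) by omega, pow_add]; norm_num
  have hidx : (P : Subgroup N).index * 2 ^ (a + 1) = Nat.card N := by
    rw [← hPc, mul_comm]; exact (P : Subgroup N).card_mul_index
  have hsq := H26.sum_sq_degrees (G := N ⧸ K)
  have hlin : ∀ χ : Cfsg.IrrCharacter (N ⧸ K), Cfsg.charDegree χ.1 = 1 →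
      χ.1 1 = 1 := fun χ h => by rw [H43.irr_charDegree_spec χ, h, Nat.cast_one]
  obtain ⟨hTC, hN1, hN3⟩ :=
    Cfsg.Agent.S2431.result (Nat.odd_iff.2 (odd_card_of_two_ne_zero h2)) T
  have hq2 := odd_card_of_two_ne_zero h2
  rcases (by omega : (q % 8 = 1 ∨ q % 8 = 7) ∨ (q % 8 = 3 ∨ q % 8 = 5)) with h8 | h8
  · have hNc : Nat.card N = 2 ^ (a + 1) := by
      rw [show N = (T : Subgroup SL₂) from hN1 h8]; exact (hcard T).trans (by rw [hva])
    have hPtop : (P : Subgroup N) = ⊤ :=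
      Subgroup.eq_top_of_card_eq _ (hPc.trans hNc.symm)
    have hAtop : A = ⊤ := (congrArg (Subgroup.map (QuotientGroup.mk' K)) hPtop).trans
      (Subgroup.map_top_of_surjective _ (QuotientGroup.mk'_surjective K))
    have hone := H26.irr_one_eq_one_of_comm (G := N ⧸ K)
      (fun u u' => hAab u (hAtop ▸ Subgroup.mem_top u) u' (hAtop ▸ Subgroup.mem_top u'))
    simp only [hone, one_pow, Finset.sum_const, Finset.card_univ, nsmul_one] at hsq
    rw [Nat.card_eq_fintype_card, Nat.cast_injective hsq]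
    rw [hNc, hpow] at hQ
    exact Nat.eq_of_mul_eq_mul_right (by positivity) hQ
  · have hNc : Nat.card N = 3 * 2 ^ (a + 1) := by
      rw [hNdef, hN3 h8]; congr 1; exact (hcard T).trans (by rw [hva])
    have hQ12 : Nat.card (N ⧸ K) = 12 := by
      rw [hNc, hpow, ← mul_assoc] at hQ
      exact Nat.eq_of_mul_eq_mul_right (by positivity) hQ
    have hP3 : (P : Subgroup N).index = 3 := by
      rw [hNc] at hidx
      exact Nat.eq_of_mul_eq_mul_right (by positivity) hidx
    have hAi : ¬ 2 ∣ A.index := fun h => by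
      have := h.trans (Subgroup.index_map_dvd _ (QuotientGroup.mk'_surjective K))
      rw [hP3] at this
      omega
    have hdeg : ∀ χ : Cfsg.IrrCharacter (N ⧸ K),
        Cfsg.charDegree χ.1 = 1 ∨ Cfsg.charDegree χ.1 = 3 := by
      intro χ
      have hd := H43.irr_charDegree_dvd χ
      rw [hQ12] at hd
      have hodd : ¬ 2 ∣ Cfsg.charDegree χ.1 := by
        obtain ⟨n, ρ, hρ, e⟩ := χ.2
        have h1 := H43.irr_charDegree_spec χ
        rw [← e, ρ.char_one] at h1
        rw [← e, ← Nat.cast_injective h1]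
        exact H45.not_dvd_finrank_of_abelian_normal_sylow ρ 2 A (P.isPGroup'.map _) hAi hAab
      have hle := Nat.le_of_dvd (by norm_num) hd
      generalize Cfsg.charDegree χ.1 = d at *
      interval_cases d <;> omega
    -- the quotient is not abelian
    have hnab : ¬ ∀ χ : Cfsg.IrrCharacter (N ⧸ K), χ.1 1 = 1 := by
      intro hall
      have hcomm := (H26.comm_iff_forall_irr_one (G := N ⧸ K)).2 hall
      obtain ⟨h, hh⟩ := exists_prime_orderOf_dvd_card' (G := N) 3
        (by rw [hNc]; exact dvd_mul_right 3 _)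
      have hho : orderOf (h : SL₂) = 3 := by rw [Subgroup.orderOf_coe, hh]
      have hhc : (h : SL₂) ∈ Subgroup.center SL₂ := by
        rw [← hTC, Subgroup.mem_centralizer_iff]
        intro t ht
        set c : SL₂ := ⁅(h : SL₂), t⁆ with hcdef
        have hcz : c ∈ Subgroup.zpowers (y ^ 2) := by
          rw [← hK']
          refine ⟨⁅h, ⟨t, Subgroup.le_normalizer ht⟩⁆, ?_, by rw [map_commutatorElement]; rfl⟩
          rw [SetLike.mem_coe, ← QuotientGroup.eq_one_iff, ← QuotientGroup.mk'_apply,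
            map_commutatorElement, commutatorElement_eq_one_iff_mul_comm]
          exact hcomm _ _
        have hcc : c = 1 ∨ c = -1 := by
          refine sl2_eq_one_or_neg_one_of_sq h2 ?_
          obtain ⟨i, hi⟩ := hcz
          rw [← hi]
          show (y ^ 2) ^ i * (y ^ 2) ^ i = 1
          have h22 : y ^ 2 * y ^ 2 = 1 := by
            rw [← pow_add, ← pow_orderOf_eq_one y, hyo, ha2 h8]
            norm_num
          rw [← (Commute.refl (y ^ 2)).mul_zpow, h22, _root_.one_zpow]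
        have hconj : (h : SL₂) * t * (h : SL₂)⁻¹ = c * t := by
          rw [hcdef, commutatorElement_def]; group
        rcases hcc with e | e
        · rw [e, one_mul, mul_inv_eq_iff_eq_mul] at hconj
          exact hconj.symm
        · exfalso
          rw [e, neg_one_mul] at hconj
          have h3 : (h : SL₂) ^ 3 = 1 := by rw [← hho]; exact pow_orderOf_eq_one _
          have hn : (h : SL₂) * -t * (h : SL₂)⁻¹ = t := by
            rw [mul_neg, neg_mul, hconj, neg_neg]
          have e1 : (h : SL₂) ^ 3 * t * ((h : SL₂) ^ 3)⁻¹ = (h : SL₂) * ((h : SL₂) *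
              ((h : SL₂) * t * (h : SL₂)⁻¹) * (h : SL₂)⁻¹) * (h : SL₂)⁻¹ := by
            simp only [pow_succ, pow_zero, one_mul, _root_.mul_inv_rev, mul_assoc]
          rw [h3, hconj, hn, hconj, one_mul, inv_one, mul_one] at e1
          exact sl2_neg_ne_self h2 t e1.symm
      rcases (sl2_mem_center_iff_eq _).1 hhc with e | e <;> rw [e] at hho
      · rw [orderOf_one] at hho
        omega
      · have := orderOf_dvd_of_pow_eq_one (x := (-1 : SL₂)) (n := 2) (by simp)
        rw [hho] at this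
        omega
    have hs : ∑ χ : Cfsg.IrrCharacter (N ⧸ K), Cfsg.charDegree χ.1 ^ 2 = 12 := by
      simp only [H43.irr_charDegree_spec] at hsq
      rw [← hQ12]
      exact_mod_cast hsq
    set S3 := Finset.univ.filter fun χ : Cfsg.IrrCharacter (N ⧸ K) => Cfsg.charDegree χ.1 = 3
    have h31 : ∑ χ : Cfsg.IrrCharacter (N ⧸ K), Cfsg.charDegree χ.1 ^ 2 =
        8 * S3.card + Fintype.card (Cfsg.IrrCharacter (N ⧸ K)) := by
      rw [Finset.sum_congr rfl (g := fun χ => 8 * (if Cfsg.charDegree χ.1 = 3 then 1 else 0) + 1)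
        fun χ _ => by rcases hdeg χ with e | e <;> simp [e],
        Finset.sum_add_distrib, ← Finset.mul_sum, ← Finset.card_filter, Finset.sum_const,
        Finset.card_univ, smul_eq_mul, mul_one]
    have h3pos : 0 < S3.card := by
      refine Nat.pos_of_ne_zero fun h0 => hnab fun χ => hlin χ ((hdeg χ).resolve_right fun e => ?_)
      have : χ ∈ S3 := Finset.mem_filter.2 ⟨Finset.mem_univ _, e⟩
      rw [Finset.card_eq_zero.1 h0] at this
      exact Finset.notMem_empty _ this
    rw [← Nat.card_eq_fintype_card] at h31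
    change Nat.card (Cfsg.IrrCharacter (N ⧸ K)) = 4
    omega

end Cfsg.Agent.H69
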